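import Cfsg.Agent.H721.FR.Base
import Cfsg.Agent.Characters.Values

/-!
# S4970, task FR-SMALL: `Hyp 0`, `Hyp 1`, `Hyp 2`

* `fsz_of_sq`: if for some `t` and all `g` one of `g`, `t g` has square `z` then `FSZ z` (counting squares);
* `hyp_zero`, `hyp_one`, `fszs_two_one` (dimension two, `ε = 1`);
* `cov_two` : the covering condition in dimension two, `ε = -1`; `hyp_two_of` : `Hyp 2` from the cover principle.
-/

set_option autoImplicit false

universe u

namespace Cfsg.Agent.H467.FRSmall

open Cfsg Cfsg.Agent.H955.FS Cfsg.Agent.H721.FR Module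

theorem norm_le_of_isIrr {G : Type u} [Group G] [Finite G] {χ : G → ℂ} (hχ : IsIrrCharacter G χ)
    {n : ℕ} (hn : χ 1 = n) (x : G) : ‖χ x‖ ≤ n := by
  obtain ⟨m, ρ, rfl⟩ := Characters.Core.isIrr_isCharacter hχ
  have h1 := Characters.Values.norm_character_le ρ x
  have h2 : ρ.character 1 = (Module.finrank ℂ (Fin m → ℂ) : ℂ) := Representation.char_one ρ
  rw [hn] at h2
  have h3 : n = Module.finrank ℂ (Fin m → ℂ) := by exact_mod_cast h2
  rw [h3]
  exact h1

/-- **Counting squares.** -/
theorem fsz_of_sq {G : Type u} [Group G] [Finite G] (z t : G)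
    (h : ∀ g : G, g * g = z ∨ (t * g) * (t * g) = z) : FSZ z := by
  classical
  have := Fintype.ofFinite G
  intro χ hχ h0
  obtain ⟨n, hn, hn1⟩ := Characters.Core.isIrr_apply_one hχ
  have hb : ∀ x : G, |(χ x).re| ≤ n := fun x =>
    (Complex.abs_re_le_norm _).trans (norm_le_of_isIrr hχ hn1 x)
  have hcard : (Nat.card G : ℂ) ≠ 0 := by exact_mod_cast Nat.card_pos.ne'
  have hsum : (Nat.card G : ℂ) * fsi χ = ∑ s : G, χ (s * s) := by
    rw [fsi_eq_sum, ← mul_assoc, mul_inv_cancel₀ hcard, one_mul]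
  have hsum2 : 2 * ((Nat.card G : ℂ) * fsi χ) = ∑ s : G, (χ (s * s) + χ ((t * s) * (t * s))) := by
    rw [Finset.sum_add_distrib, hsum, two_mul]
    congr 1
    exact (Fintype.sum_bijective (fun s : G => t * s) (Group.mulLeft_bijective t)
      (fun s => χ ((t * s) * (t * s))) (fun s => χ (s * s)) (fun s => rfl)).symm
  have hpos : (0 : ℝ) < Nat.card G := by exact_mod_cast Nat.card_pos
  rcases fsi_cases hχ with h1 | h1 | h1
  · rw [h1, zero_mul, hn1] at h0
    have : (n : ℂ) = 0 := by linear_combination h0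
    exact hn.ne' (by exact_mod_cast this)
  · rw [h1, one_mul, hn1] at h0
    rw [h1, mul_one] at hsum2
    have h2 : ∀ s : G, (χ (s * s) + χ ((t * s) * (t * s))).re ≤ 0 := by
      intro s
      rw [Complex.add_re]
      have hz : (χ z).re = -n := by
        rw [h0]
        simp
      rcases h s with h3 | h3
      · rw [h3, hz]
        have := (abs_le.1 (hb ((t * s) * (t * s)))).2
        linarith
      · rw [h3, hz]
        have := (abs_le.1 (hb (s * s))).2
        linarith
    have h3 := congrArg Complex.re hsum2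
    rw [Complex.re_sum] at h3
    have h4 : ∑ s : G, (χ (s * s) + χ ((t * s) * (t * s))).re ≤ 0 :=
      Finset.sum_nonpos fun s _ => h2 s
    rw [← h3] at h4
    have h5 : ((2 : ℂ) * (Nat.card G : ℂ)).re = 2 * (Nat.card G : ℝ) := by simp
    rw [h5] at h4
    linarith
  · rw [h1, hn1] at h0
    rw [h1] at hsum2
    have hz : (χ z).re = n := by
      have : χ z = n := by linear_combination -h0
      rw [this]
      simp
    have h2 : ∀ s : G, 0 ≤ (χ (s * s) + χ ((t * s) * (t * s))).re := by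
      intro s
      rw [Complex.add_re]
      rcases h s with h3 | h3
      · rw [h3, hz]
        have := (abs_le.1 (hb ((t * s) * (t * s)))).1
        linarith
      · rw [h3, hz]
        have := (abs_le.1 (hb (s * s))).1
        linarith
    have h3 := congrArg Complex.re hsum2
    rw [Complex.re_sum] at h3
    have h4 : 0 ≤ ∑ s : G, (χ (s * s) + χ ((t * s) * (t * s))).re :=
      Finset.sum_nonneg fun s _ => h2 s
    rw [← h3] at h4
    have h5 : ((2 : ℂ) * ((Nat.card G : ℂ) * -1)).re = - (2 * (Nat.card G : ℝ)) := by simp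
    rw [h5] at h4
    linarith

/-- the same for a subgroup of an ambient group -/
theorem fszs_of_sq {Γ : Type u} [Group Γ] (Y : Subgroup Γ) [Finite Y] {z t : Γ} (hz : z ∈ Y)
    (ht : t ∈ Y) (h : ∀ g ∈ Y, g * g = z ∨ (t * g) * (t * g) = z) : FSZs Y z := by
  refine ⟨hz, fsz_of_sq _ ⟨t, ht⟩ fun g => ?_⟩
  rcases h g g.2 with h1 | h1
  · exact Or.inl (Subtype.ext h1)
  · exact Or.inr (Subtype.ext h1)

/-! ### Geometry -/

section Geo

variable {F V : Type u} [Field F] [AddCommGroup V] [Module F V]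

theorem zel_one : zel V (1 : F) = 1 := by
  unfold zel
  rw [if_pos rfl]

theorem zel_neg_one (h2 : (2 : F) ≠ 0) : zel V (-1 : F) = LinearEquiv.neg F := by
  unfold zel
  rw [if_neg]
  intro h
  apply h2
  linear_combination -h

theorem neg_mem_isom (B : V →ₗ[F] V →ₗ[F] F) : (LinearEquiv.neg F : V ≃ₗ[F] V) ∈ Isom B := by
  intro x y
  simp

theorem zel_mem_isom (B : V →ₗ[F] V →ₗ[F] F) (ε : F) : zel V ε ∈ Isom B := by
  unfold zel
  split_ifs
  · exact one_mem _
  · exact neg_mem_isom B

instance finite_end [Finite F] [FiniteDimensional F V] : Finite (V ≃ₗ[F] V) := by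
  have : Finite V := Module.finite_of_finite F
  exact Finite.of_injective (fun g : V ≃ₗ[F] V => (g : V → V)) DFunLike.coe_injective

/-! ### coordinates in dimension two -/

theorem exists_coord [FiniteDimensional F V] (hd : finrank F V = 2) {u w : V}
    (h : ∀ a b : F, a • u + b • w = 0 → a = 0 ∧ b = 0) (x : V) : ∃ a b : F, x = a • u + b • w := by
  have hli : LinearIndependent F ![u, w] := LinearIndependent.pair_iff.2 h
  have hs := hli.span_eq_top_of_card_eq_finrank (by rw [hd]; rfl)
  have hx : x ∈ Submodule.span F (Set.range ![u, w]) := by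
    rw [hs]
    exact Submodule.mem_top
  rw [Matrix.range_cons, Matrix.range_cons, Matrix.range_empty, Set.union_empty,
    Set.singleton_union, Submodule.mem_span_pair] at hx
  obtain ⟨a, b, h1⟩ := hx
  exact ⟨a, b, h1.symm⟩

/-! ### dimension zero and one -/

theorem hyp_zero : Hyp.{u} 0 := by
  intro F V _ _ _ _ _ B ε hF hd
  have hV : Subsingleton V := Module.finrank_zero_iff.1 hd
  refine fszs_of_sq (Isom B) (zel_mem_isom B ε) (one_mem _) fun g _ => Or.inl ?_
  exact LinearEquiv.ext fun x => Subsingleton.elim _ _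

theorem hyp_one : Hyp.{u} 1 := by
  intro F V _ _ _ _ _ B ε hF hd
  obtain ⟨v, hv, hs⟩ := finrank_eq_one_iff'.1 hd
  have hB : B v v ≠ 0 := by
    intro h
    apply hv
    refine hF.nondeg v fun y => ?_
    obtain ⟨a, rfl⟩ := hs y
    rw [map_smul, h, smul_zero]
  rcases hF.eps with h1 | ⟨h1, -⟩
  · subst h1
    rw [show zel V (1 : F) = 1 from zel_one]
    refine fszs_of_sq (Isom B) (one_mem _) (one_mem _) fun g hg => Or.inl ?_
    obtain ⟨a, ha⟩ := hs (g v)
    have h2 : a * a = 1 := by
      have h3 := hg v v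
      rw [← ha] at h3
      simp only [map_smul, LinearMap.smul_apply, smul_eq_mul] at h3
      apply mul_right_cancel₀ hB
      linear_combination h3
    refine LinearEquiv.ext fun x => ?_
    obtain ⟨b, rfl⟩ := hs x
    show g (g (b • v)) = b • v
    rw [map_smul, ← ha, smul_smul, map_smul, ← ha, smul_smul, mul_assoc, h2, mul_one]
  · exfalso
    have h2 := hF.symm v v
    rw [h1] at h2
    apply hB
    apply (mul_eq_zero.1 (show (2 : F) * B v v = 0 by linear_combination h2)).resolve_left hF.two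

/-! ### dimension two, `ε = 1` -/

/-- a non-isotropic vector -/
theorem exists_anis {B : V →ₗ[F] V →ₗ[F] F} (hF : Fm B 1) (hne : ∃ v : V, v ≠ 0) :
    ∃ u, B u u ≠ 0 := by
  by_contra hcon
  push Not at hcon
  obtain ⟨v, hv⟩ := hne
  apply hv
  refine hF.nondeg v fun y => ?_
  have h1 := hcon (v + y)
  simp only [map_add, LinearMap.add_apply] at h1
  rw [hcon v, hcon y, hF.symm y v] at h1
  exact (mul_eq_zero.1 (show (2 : F) * B v y = 0 by linear_combination h1)).resolve_left hF.two

theorem fszs_two_one [Finite F] [FiniteDimensional F V] {B : V →ₗ[F] V →ₗ[F] F} (hF : Fm B 1)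
    (hd : finrank F V = 2) : FSZs (Isom B) (zel V (1 : F)) := by
  have hne : ∃ v : V, v ≠ 0 := by
    have : Nontrivial V := Module.nontrivial_of_finrank_pos (R := F) (by omega)
    exact exists_ne 0
  obtain ⟨u, hu⟩ := exists_anis hF hne
  have hsym : ∀ x y, B x y = B y x := fun x y => by rw [hF.symm x y, one_mul]
  -- a vector outside the line of `u`
  have hy : ∃ y : V, ∀ a : F, y ≠ a • u := by
    by_contra hcon
    push Not at hcon
    have h1 : finrank F V ≤ 1 := finrank_le_one u fun w => by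
      obtain ⟨a, ha⟩ := hcon w
      exact ⟨a, ha.symm⟩
    omega
  obtain ⟨y, hy⟩ := hy
  obtain ⟨w, hw, hwu⟩ : ∃ w : V, w ≠ 0 ∧ B u w = 0 := by
    refine ⟨y - (B u y / B u u) • u, sub_ne_zero.2 (hy _), ?_⟩
    rw [map_sub, map_smul, smul_eq_mul, div_mul_cancel₀ _ hu, sub_self]
  have hwu' : B w u = 0 := by rw [hsym, hwu]
  have hli : ∀ a b : F, a • u + b • w = 0 → a = 0 ∧ b = 0 := by
    intro a b hab
    have h1 : a = 0 := by
      have h2 := congrArg (B u) hab
      rw [map_add, map_smul, map_smul, hwu, map_zero, smul_zero, add_zero, smul_eq_mul] at h2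
      exact (mul_eq_zero.1 h2).resolve_right hu
    refine ⟨h1, ?_⟩
    rw [h1, zero_smul, zero_add] at hab
    exact (smul_eq_zero.1 hab).resolve_right hw
  have hco := exists_coord hd hli
  have hw2 : B w w ≠ 0 := by
    intro h
    apply hw
    refine hF.nondeg w fun x => ?_
    obtain ⟨a, b, rfl⟩ := hco x
    simp [hwu', h]
  -- Parseval
  have hpar : ∀ x, B w w * (B x u) ^ 2 + B u u * (B x w) ^ 2 = B u u * B w w * B x x := by
    intro x
    obtain ⟨a, b, rfl⟩ := hco x
    simp only [map_add, map_smul, LinearMap.add_apply, LinearMap.smul_apply, smul_eq_mul, hwu, hwu']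
    ring
  -- self-adjoint isometries are involutions
  have hinv : ∀ g ∈ Isom B, B (g u) w = B u (g w) → g * g = 1 := by
    intro g hg h
    have hsa : ∀ x y, B (g x) y = B x (g y) := by
      intro x y
      obtain ⟨a, b, rfl⟩ := hco x
      obtain ⟨a', b', rfl⟩ := hco y
      simp only [map_add, map_smul, LinearMap.add_apply, LinearMap.smul_apply, smul_eq_mul]
      rw [hsym (g u) u, hsym (g w) w, h, hsym (g w) u, ← h, hsym w (g u)]
    refine LinearEquiv.ext fun x => ?_
    show g (g x) = x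
    refine sub_eq_zero.1 (hF.nondeg _ fun y => ?_)
    rw [map_sub, LinearMap.sub_apply, hsa, hg, sub_self]
  -- the reflection
  let f : V →ₗ[F] F := (2 / B w w) • B.flip w
  have hf : ∀ x, f x = 2 / B w w * B x w := fun x => rfl
  have hfw : f w = 2 := by rw [hf, div_mul_cancel₀ _ hw2]
  let t : V ≃ₗ[F] V := Module.reflection hfw
  have ht : ∀ x, t x = x - (2 / B w w * B x w) • w := fun x => by
    show Module.reflection hfw x = _
    rw [Module.reflection_apply, hf]
  have htB : ∀ x y, B (t x) y = B x (t y) := by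
    intro x y
    rw [ht, ht]
    simp only [map_sub, map_smul, LinearMap.sub_apply, LinearMap.smul_apply, smul_eq_mul]
    rw [hsym w y]
    ring
  have htu : t u = u := by rw [ht, hwu, mul_zero, zero_smul, sub_zero]
  have htw : t w = -w := by
    rw [ht, div_mul_cancel₀ _ hw2, two_smul]
    abel
  have htt : ∀ x, t (t x) = x := fun x => Module.involutive_reflection hfw x
  have htm : t ∈ Isom B := by
    intro x y
    rw [htB, htt]
  rw [zel_one]
  refine fszs_of_sq (Isom B) (one_mem _) htm fun g hg => ?_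
  have hsq : (B (g u) w) ^ 2 = (B u (g w)) ^ 2 := by
    have h1 := hpar (g u)
    have h2 := hpar (g⁻¹ u)
    have h3 : B (g⁻¹ u) (g⁻¹ u) = B u u := (inv_mem hg) u u
    have h4 : ∀ z, B (g⁻¹ u) z = B u (g z) := fun z => by
      rw [← hg (g⁻¹ u) z]
      congr 2
      exact LinearEquiv.apply_symm_apply g u
    rw [hg u u] at h1
    rw [h3, h4, h4, ← hsym (g u) u] at h2
    apply mul_left_cancel₀ hu
    linear_combination h1 - h2
  rcases sq_eq_sq_iff_eq_or_eq_neg.1 hsq with h | h
  · exact Or.inl (hinv g hg h)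
  · right
    refine hinv (t * g) (mul_mem htm hg) ?_
    show B (t (g u)) w = B u (t (g w))
    rw [htB, htw, map_neg, h, neg_neg, ← htB, htu]

/-! ### dimension two, `ε = -1` -/

/-- the isometries centralising or inverting `c` -/
def invC (B : V →ₗ[F] V →ₗ[F] F) (c : V ≃ₗ[F] V) : Subgroup (V ≃ₗ[F] V) where
  carrier := {g | g ∈ Isom B ∧ (g * c * g⁻¹ = c ∨ g * c * g⁻¹ = c⁻¹)}
  mul_mem' := by
    rintro a b ⟨ha, ha'⟩ ⟨hb, hb'⟩
    refine ⟨mul_mem ha hb, ?_⟩
    have h1 : a * b * c * (a * b)⁻¹ = a * (b * c * b⁻¹) * a⁻¹ := by group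
    rw [h1]
    rcases hb' with h | h
    · rw [h]
      exact ha'
    · rw [h]
      have h2 : a * c⁻¹ * a⁻¹ = (a * c * a⁻¹)⁻¹ := by group
      rw [h2]
      rcases ha' with h | h
      · rw [h]
        exact Or.inr rfl
      · rw [h, inv_inv]
        exact Or.inl rfl
  one_mem' := ⟨one_mem _, Or.inl (by group)⟩
  inv_mem' := by
    rintro a ⟨ha, ha'⟩
    refine ⟨inv_mem ha, ?_⟩
    rw [inv_inv]
    rcases ha' with h | h
    · left
      calc a⁻¹ * c * a = a⁻¹ * (a * c * a⁻¹) * a := by rw [h]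
        _ = c := by group
    · right
      calc a⁻¹ * c * a = (a⁻¹ * c⁻¹ * a)⁻¹ := by group
        _ = (a⁻¹ * (a * c * a⁻¹) * a)⁻¹ := by rw [h]
        _ = c⁻¹ := by group

theorem mem_invC {B : V →ₗ[F] V →ₗ[F] F} {c g : V ≃ₗ[F] V} :
    g ∈ invC B c ↔ g ∈ Isom B ∧ (g * c * g⁻¹ = c ∨ g * c * g⁻¹ = c⁻¹) := Iff.rfl

section Alt

variable {B : V →ₗ[F] V →ₗ[F] F}

theorem alt_self (hF : Fm B (-1)) (x : V) : B x x = 0 := by
  have h2 := hF.symm x x
  exact (mul_eq_zero.1 (show (2 : F) * B x x = 0 by linear_combination h2)).resolve_left hF.two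

theorem alt_swap (hF : Fm B (-1)) (x y : V) : B x y = - B y x := by
  rw [hF.symm x y, neg_one_mul]

theorem alt_li (hF : Fm B (-1)) {u w : V} (h : B u w ≠ 0) (a b : F) (hab : a • u + b • w = 0) :
    a = 0 ∧ b = 0 := by
  have h1 : a = 0 := by
    have h2 := congrArg (fun x => B x w) hab
    simp only [map_add, map_smul, LinearMap.add_apply, LinearMap.smul_apply, smul_eq_mul,
      alt_self hF w, mul_zero, add_zero, map_zero, LinearMap.zero_apply] at h2
    exact (mul_eq_zero.1 h2).resolve_right h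
  refine ⟨h1, ?_⟩
  have h2 := congrArg (fun x => B u x) hab
  simp only [map_add, map_smul, smul_eq_mul, alt_self hF u, mul_zero, zero_add, map_zero] at h2
  exact (mul_eq_zero.1 h2).resolve_right h

/-- an isometry plus its inverse is a scalar -/
theorem exists_trace [FiniteDimensional F V] (hF : Fm B (-1)) (hd : finrank F V = 2)
    {g : V ≃ₗ[F] V} (hg : g ∈ Isom B) : ∃ τ : F, ∀ x, g x + g⁻¹ x = τ • x := by
  have hne : ∃ u w : V, B u w ≠ 0 := by
    by_contra hcon
    push Not at hcon
    have : Nontrivial V := Module.nontrivial_of_finrank_pos (R := F) (by omega)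
    obtain ⟨v, hv⟩ := exists_ne (0 : V)
    exact hv (hF.nondeg v (hcon v))
  obtain ⟨u, w, huw⟩ := hne
  have hco := exists_coord hd (alt_li hF huw)
  obtain ⟨a, b, hu⟩ := hco (g u)
  obtain ⟨c, d, hw⟩ := hco (g w)
  have hdet : a * d - b * c = 1 := by
    have h1 := hg u w
    rw [hu, hw] at h1
    simp only [map_add, map_smul, LinearMap.add_apply, LinearMap.smul_apply, smul_eq_mul,
      alt_self hF u, alt_self hF w, alt_swap hF w u] at h1
    apply mul_right_cancel₀ huw
    linear_combination h1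
  have hu' : g⁻¹ u = d • u - b • w := by
    show g.symm u = _
    rw [LinearEquiv.symm_apply_eq, map_sub, map_smul, map_smul, hu, hw]
    have : (1 : F) • u = u := one_smul _ _
    nth_rewrite 1 [← this]
    rw [← hdet]
    module
  have hw' : g⁻¹ w = a • w - c • u := by
    show g.symm w = _
    rw [LinearEquiv.symm_apply_eq, map_sub, map_smul, map_smul, hu, hw]
    have : (1 : F) • w = w := one_smul _ _
    nth_rewrite 1 [← this]
    rw [← hdet]
    module
  refine ⟨a + d, fun x => ?_⟩
  obtain ⟨p, q, rfl⟩ := hco x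
  rw [map_add, map_smul, map_smul, map_add, map_smul, map_smul, hu, hw, hu', hw']
  module

/-- an isometry inverting `c`, `c² ≠ 1`, has square `-1` -/
theorem sq_of_inv [FiniteDimensional F V] (hF : Fm B (-1)) (hd : finrank F V = 2)
    {c t : V ≃ₗ[F] V} (hc : c * c ≠ 1) (ht : t ∈ Isom B) (h : t * c * t⁻¹ = c⁻¹) :
    t * t = LinearEquiv.neg F := by
  obtain ⟨τ, hτ⟩ := exists_trace hF hd ht
  obtain ⟨v, hv⟩ : ∃ v, c v - c⁻¹ v ≠ 0 := by
    by_contra hcon
    push Not at hcon
    apply hc
    refine LinearEquiv.ext fun x => ?_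
    show c (c x) = x
    have h1 := hcon (c x)
    rw [sub_eq_zero] at h1
    rw [h1]
    exact LinearEquiv.symm_apply_apply c x
  have e1 : ∀ x, t (c x) = c⁻¹ (t x) := by
    intro x
    have h1 : t * c = c⁻¹ * t := by rw [← h]; group
    exact LinearEquiv.congr_fun h1 x
  have e2 : ∀ x, t (c⁻¹ x) = c (t x) := by
    intro x
    have h1 : t * c⁻¹ = c * t := by
      have h2 : c = t * c⁻¹ * t⁻¹ := by
        calc c = (c⁻¹)⁻¹ := (inv_inv c).symm
          _ = (t * c * t⁻¹)⁻¹ := by rw [h]
          _ = t * c⁻¹ * t⁻¹ := by group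
      nth_rewrite 2 [h2]
      group
    exact LinearEquiv.congr_fun h1 x
  have e3 : ∀ x, t⁻¹ (c x) = c⁻¹ (t⁻¹ x) := by
    intro x
    have h1 : t⁻¹ * c = c⁻¹ * t⁻¹ := by
      have h2 : t * (t⁻¹ * c) = t * (c⁻¹ * t⁻¹) := by
        have h3 : t * c⁻¹ = c * t := by
          refine LinearEquiv.ext fun y => e2 y
        rw [← mul_assoc, ← mul_assoc, h3]
        group
      exact mul_left_cancel h2
    exact LinearEquiv.congr_fun h1 x
  have e4 : ∀ x, t⁻¹ (c⁻¹ x) = c (t⁻¹ x) := by
    intro x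
    have h1 : t⁻¹ * c⁻¹ = c * t⁻¹ := by
      have h2 : t * (t⁻¹ * c⁻¹) = t * (c * t⁻¹) := by
        have h3 : t * c = c⁻¹ * t := by
          refine LinearEquiv.ext fun y => e1 y
        rw [← mul_assoc, ← mul_assoc, h3]
        group
      exact mul_left_cancel h2
    exact LinearEquiv.congr_fun h1 x
  have h1 := hτ (c v - c⁻¹ v)
  rw [map_sub, map_sub, e1, e2, e3, e4] at h1
  have h2 : c⁻¹ (t v) + c⁻¹ (t⁻¹ v) - (c (t v) + c (t⁻¹ v)) = τ • (c v - c⁻¹ v) := by
    rw [← h1]
    abel
  rw [← map_add, ← map_add, hτ v, map_smul, map_smul] at h2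
  have h3 : (2 * τ) • (c v - c⁻¹ v) = 0 := by
    have h4 : (2 * τ) • (c v - c⁻¹ v) = τ • (c v - c⁻¹ v) - (τ • c⁻¹ v - τ • c v) := by module
    rw [h4, h2, sub_self]
  have h4 : τ = 0 := by
    rcases smul_eq_zero.1 h3 with h5 | h5
    · exact (mul_eq_zero.1 h5).resolve_left hF.two
    · exact absurd h5 hv
  refine LinearEquiv.ext fun x => ?_
  show t (t x) = -x
  have h5 := hτ (t x)
  have h6 : t⁻¹ (t x) = x := LinearEquiv.symm_apply_apply t x
  rw [h4, zero_smul, h6] at h5
  exact eq_neg_of_add_eq_zero_left h5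

/-- an isometry inverting `c` -/
theorem exists_inverter [Finite F] [FiniteDimensional F V] (hF : Fm B (-1)) (hd : finrank F V = 2)
    {c : V ≃ₗ[F] V} (hc : c * c ≠ 1) (hcB : c ∈ Isom B) :
    ∃ t ∈ Isom B, t * c * t⁻¹ = c⁻¹ := by
  obtain ⟨τ, hτ⟩ := exists_trace hF hd hcB
  -- the square root of `-1`
  obtain ⟨i, hi⟩ : ∃ i : F, i * i = -1 := by
    classical
    have := Fintype.ofFinite F
    have h1 : IsSquare (-1 : F) := by
      rw [FiniteField.isSquare_neg_one_iff]
      rcases hF.eps with h | h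
      · exfalso
        apply hF.two
        linear_combination -h
      · rw [← Nat.card_eq_fintype_card, h.2]
        norm_num
    obtain ⟨i, hi⟩ := h1
    exact ⟨i, hi.symm⟩
  have hadj : ∀ x y, B (c⁻¹ x) y = B x (c y) := fun x y => by
    rw [← hcB (c⁻¹ x) y]
    congr 2
    exact LinearEquiv.apply_symm_apply c x
  have hadj' : ∀ x y, B (c x) y = B x (c⁻¹ y) := fun x y => by
    rw [← hcB x (c⁻¹ y)]
    congr 1
    exact (LinearEquiv.apply_symm_apply c y).symm
  have hcc : ∀ x, c (c⁻¹ x) = x := fun x => LinearEquiv.apply_symm_apply c x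
  have hcc' : ∀ x, c⁻¹ (c x) = x := fun x => LinearEquiv.symm_apply_apply c x
  -- a vector with `B v (c v - c⁻¹ v) ≠ 0`
  obtain ⟨v, hv⟩ : ∃ v, B v (c v - c⁻¹ v) ≠ 0 := by
    by_contra hcon
    push Not at hcon
    apply hc
    refine LinearEquiv.ext fun x => ?_
    show c (c x) = x
    have hz : ∀ u y : V, B u (c y - c⁻¹ y) = 0 := by
      intro u y
      have h1 := hcon (u + y)
      have h2 := hcon u
      have h3 := hcon y
      have h4 : B y (c u - c⁻¹ u) = B u (c y - c⁻¹ y) := by
        rw [map_sub, map_sub, ← hadj, ← hadj', alt_swap hF _ u, alt_swap hF _ u]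
        ring
      rw [map_add c, map_add c⁻¹] at h1
      have h5 : c u + c y - (c⁻¹ u + c⁻¹ y) = (c u - c⁻¹ u) + (c y - c⁻¹ y) := by abel
      rw [h5, map_add (B (u + y)), map_add B, LinearMap.add_apply, LinearMap.add_apply, h2, h3, h4] at h1
      exact (mul_eq_zero.1 (show (2 : F) * B u (c y - c⁻¹ y) = 0 by
        linear_combination h1)).resolve_left hF.two
    have h1 : c (c x) - c⁻¹ (c x) = 0 := by
      refine hF.nondeg _ fun y => ?_
      rw [alt_swap hF, hz, neg_zero]
    rw [hcc', sub_eq_zero] at h1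
    exact h1
  set w : V := c v - c⁻¹ v with hw
  have hco := exists_coord hd (alt_li hF hv)
  have hi0 : i ≠ 0 := by
    rintro rfl
    rw [mul_zero] at hi
    exact one_ne_zero (neg_eq_zero.1 hi.symm)
  let f : V →ₗ[F] F := (2 / B v w) • B v
  have hf : ∀ x, f x = 2 / B v w * B v x := fun x => rfl
  have hfw : f w = 2 := by rw [hf, div_mul_cancel₀ _ hv]
  let t : V ≃ₗ[F] V := LinearEquiv.smulOfNeZero F V i hi0 * Module.reflection hfw
  have ht : ∀ x, t x = i • (x - (2 / B v w * B v x) • w) := fun x => by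
    show i • (Module.reflection hfw x) = _
    rw [Module.reflection_apply, hf]
  have htv : t v = i • v := by rw [ht, alt_self hF, mul_zero, zero_smul, sub_zero]
  have htw : t w = -(i • w) := by
    rw [ht, div_mul_cancel₀ _ hv]
    module
  have htm : t ∈ Isom B := by
    intro x y
    obtain ⟨a, b, rfl⟩ := hco x
    obtain ⟨a', b', rfl⟩ := hco y
    simp only [map_add, map_smul, LinearMap.add_apply, LinearMap.smul_apply, smul_eq_mul, htv, htw,
      map_neg, LinearMap.neg_apply, alt_self hF v, alt_self hF w, alt_swap hF w v]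
    linear_combination (-(a * b' * B v w) + b * a' * B v w) * hi
  refine ⟨t, htm, ?_⟩
  have hcv : (2 : F) • c v = τ • v + w := by
    rw [← hτ v, hw, two_smul]
    abel
  have hcv' : (2 : F) • c⁻¹ v = τ • v - w := by
    rw [← hτ v, hw, two_smul]
    abel
  have hcw : c w = τ • c v - (2 : F) • v := by
    rw [hw, map_sub, hcc]
    have h1 := hτ (c v)
    rw [hcc'] at h1
    rw [← h1, two_smul]
    abel
  have hcw' : c⁻¹ w = (2 : F) • v - τ • c⁻¹ v := by
    rw [hw, map_sub, hcc']
    have h1 := hτ (c⁻¹ v)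
    rw [hcc] at h1
    rw [← h1, two_smul]
    abel
  have h2inj : ∀ x y : V, (2 : F) • x = (2 : F) • y → x = y := fun x y h =>
    smul_right_injective V hF.two h
  have k1 : t (c v) = i • c⁻¹ v := by
    apply h2inj
    rw [← map_smul, hcv, map_add, map_smul, htv, htw, smul_comm (2 : F) i, hcv']
    module
  have k2 : t (c w) = -(i • c⁻¹ w) := by
    rw [hcw, map_sub, map_smul, map_smul, k1, htv, hcw']
    module
  have key : t * c = c⁻¹ * t := by
    refine LinearEquiv.ext fun x => ?_
    show t (c x) = c⁻¹ (t x)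
    obtain ⟨a, b, rfl⟩ := hco x
    simp only [map_add, map_smul, k1, k2, htv, htw, map_neg]
  rw [key]
  group

theorem neg_mul_self : (LinearEquiv.neg F : V ≃ₗ[F] V) * LinearEquiv.neg F = 1 :=
  LinearEquiv.ext fun x => neg_neg x

theorem neg_comm (g : V ≃ₗ[F] V) : g * LinearEquiv.neg F = LinearEquiv.neg F * g :=
  LinearEquiv.ext fun x => map_neg g x

/-- the group `invC B c` is good -/
theorem fszs_invC [Finite F] [FiniteDimensional F V] (hF : Fm B (-1)) (hd : finrank F V = 2)
    {c : V ≃ₗ[F] V} (hc : c * c ≠ 1) (hcB : c ∈ Isom B) : FSZs (invC B c) (zel V (-1 : F)) := by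
  obtain ⟨t, htB, htc⟩ := exists_inverter hF hd hc hcB
  rw [zel_neg_one hF.two]
  refine fszs_of_sq (invC B c) ?_ (t := t) ⟨htB, Or.inr htc⟩ ?_
  · refine ⟨neg_mem_isom B, Or.inl ?_⟩
    rw [← neg_comm, mul_assoc, mul_inv_cancel, mul_one]
  · rintro g ⟨hgB, hg | hg⟩
    · right
      refine sq_of_inv hF hd hc (mul_mem htB hgB) ?_
      have h1 : t * g * c * (t * g)⁻¹ = t * (g * c * g⁻¹) * t⁻¹ := by group
      rw [h1, hg, htc]
    · left
      exact sq_of_inv hF hd hc hgB hg

/-- involutions are central -/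
theorem sq_one [FiniteDimensional F V] (hF : Fm B (-1)) (hd : finrank F V = 2)
    {g : V ≃ₗ[F] V} (hg : g ∈ Isom B) (h : g * g = 1) : g = 1 ∨ g = LinearEquiv.neg F := by
  obtain ⟨τ, hτ⟩ := exists_trace hF hd hg
  have hinv : g⁻¹ = g := inv_eq_of_mul_eq_one_right h
  rw [hinv] at hτ
  have hg2 : ∀ x, g x = (τ / 2) • x := by
    intro x
    have h1 : (2 : F) • g x = τ • x := by rw [two_smul, hτ]
    rw [div_eq_mul_inv, mul_comm, mul_smul, ← h1, smul_smul, inv_mul_cancel₀ hF.two, one_smul]
  have : Nontrivial V := Module.nontrivial_of_finrank_pos (R := F) (by omega)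
  obtain ⟨v, hv⟩ := exists_ne (0 : V)
  have h1 : (τ / 2) * (τ / 2) = 1 := by
    have h2 : g (g v) = v := LinearEquiv.congr_fun h v
    rw [hg2, hg2, smul_smul] at h2
    have h3 : (τ / 2 * (τ / 2) - 1) • v = 0 := by rw [sub_smul, h2, one_smul, sub_self]
    exact sub_eq_zero.1 ((smul_eq_zero.1 h3).resolve_right hv)
  rcases mul_self_eq_one_iff.1 h1 with h2 | h2
  · left
    refine LinearEquiv.ext fun x => ?_
    rw [hg2, h2, one_smul]
    rfl
  · right
    refine LinearEquiv.ext fun x => ?_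
    rw [hg2, h2, neg_one_smul]
    rfl

/-- an isometry whose square is not one (a transvection) -/
theorem exists_sq_ne [FiniteDimensional F V] (hF : Fm B (-1)) (hd : finrank F V = 2) :
    ∃ s ∈ Isom B, s * s ≠ 1 := by
  have hne : ∃ u w : V, B u w ≠ 0 := by
    by_contra hcon
    push Not at hcon
    have : Nontrivial V := Module.nontrivial_of_finrank_pos (R := F) (by omega)
    obtain ⟨v, hv⟩ := exists_ne (0 : V)
    exact hv (hF.nondeg v (hcon v))
  obtain ⟨u, w, huw⟩ := hne
  have huu := alt_self hF u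
  let s : V ≃ₗ[F] V := LinearEquiv.ofLinearMap (LinearMap.id + (B u).smulRight u)
    (LinearMap.id - (B u).smulRight u)
    (by
      refine LinearMap.ext fun x => ?_
      simp [huu])
    (by
      refine LinearMap.ext fun x => ?_
      simp [huu])
  have hs : ∀ x, s x = x + B u x • u := fun x => rfl
  refine ⟨s, fun x y => ?_, fun h => ?_⟩
  · rw [hs, hs]
    simp only [map_add, map_smul, LinearMap.add_apply, LinearMap.smul_apply, smul_eq_mul, huu,
      alt_swap hF x u]
    ring
  · have h1 : s (s w) = w := LinearEquiv.congr_fun h w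
    rw [hs, hs, map_add, map_smul, huu, smul_zero, add_zero] at h1
    have h2 : (2 * B u w) • u = 0 := by
      have h3 : (2 * B u w) • u = (w + B u w • u + B u w • u) - w := by module
      rw [h3, h1, sub_self]
    rcases smul_eq_zero.1 h2 with h3 | h3
    · exact huw ((mul_eq_zero.1 h3).resolve_left hF.two)
    · apply huw
      rw [h3, map_zero, LinearMap.zero_apply]

/-- the subgroup `{1, -1}` -/
def pm (F V : Type u) [Field F] [AddCommGroup V] [Module F V] : Subgroup (V ≃ₗ[F] V) where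
  carrier := {g | g = 1 ∨ g = LinearEquiv.neg F}
  mul_mem' := by
    rintro a b (rfl | rfl) (rfl | rfl)
    · exact Or.inl (one_mul _)
    · exact Or.inr (one_mul _)
    · exact Or.inr (mul_one _)
    · exact Or.inl neg_mul_self
  one_mem' := Or.inl rfl
  inv_mem' := by
    rintro a (rfl | rfl)
    · exact Or.inl inv_one
    · exact Or.inr (inv_eq_of_mul_eq_one_right neg_mul_self)

theorem mem_pm {g : V ≃ₗ[F] V} : g ∈ pm F V ↔ g = 1 ∨ g = LinearEquiv.neg F := Iff.rfl

instance pm_normal : (pm F V).Normal := by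
  constructor
  rintro n (rfl | rfl) g
  · left
    group
  · right
    rw [neg_comm, mul_assoc, mul_inv_cancel, mul_one]

theorem pm_isPGroup : IsPGroup 2 (pm F V) := by
  rintro ⟨g, hg⟩
  refine ⟨1, Subtype.ext ?_⟩
  show g ^ (2 ^ 1) = 1
  rw [pow_one, pow_two]
  rcases hg with rfl | rfl
  · exact one_mul _
  · exact neg_mul_self

/-- a 2-group of isometries centralises or inverts some isometry of square not one -/
theorem exists_normalized [Finite F] [FiniteDimensional F V] (hF : Fm B (-1))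
    (hd : finrank F V = 2) {P : Subgroup (V ≃ₗ[F] V)} (hPB : P ≤ Isom B) (hP : IsPGroup 2 P) :
    ∃ s ∈ Isom B, s * s ≠ 1 ∧ ∀ g ∈ P, g * s * g⁻¹ = s ∨ g * s * g⁻¹ = s⁻¹ := by
  classical
  have hpmB : pm F V ≤ Isom B := by
    rintro g (rfl | rfl)
    · exact one_mem _
    · exact neg_mem_isom B
  have hP' : IsPGroup 2 (P ⊔ pm F V : Subgroup (V ≃ₗ[F] V)) :=
    hP.to_sup_of_normal_right pm_isPGroup
  have hPB' : P ⊔ pm F V ≤ Isom B := sup_le hPB hpmB
  have hle : P ≤ P ⊔ pm F V := le_sup_left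
  generalize P ⊔ pm F V = R at hP' hPB' hle
  by_cases hall : ∀ g ∈ R, g * g = 1
  · obtain ⟨s, hs, hss⟩ := exists_sq_ne hF hd
    refine ⟨s, hs, hss, fun g hg => Or.inl ?_⟩
    rcases sq_one hF hd (hPB hg) (hall g (hle hg)) with rfl | rfl
    · group
    · rw [← neg_comm, mul_assoc, mul_inv_cancel, mul_one]
  · push Not at hall
    obtain ⟨g0, hg0, hg0'⟩ := hall
    have hnt : Nontrivial (R ⧸ (pm F V).subgroupOf R) := by
      refine ⟨⟨((⟨g0, hg0⟩ : R) : R ⧸ (pm F V).subgroupOf R), 1, fun h => ?_⟩⟩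
      rw [QuotientGroup.eq_one_iff, Subgroup.mem_subgroupOf] at h
      apply hg0'
      rcases h with h | h
      · have h' : g0 = 1 := h
        rw [h', one_mul]
      · have h' : g0 = LinearEquiv.neg F := h
        rw [h']
        exact neg_mul_self
    have hfin : Finite (R ⧸ (pm F V).subgroupOf R) := inferInstance
    have hpq : IsPGroup 2 (R ⧸ (pm F V).subgroupOf R) := hP'.to_quotient _
    have hcn := hpq.center_nontrivial
    obtain ⟨⟨cb, hcb⟩, hcb1⟩ := exists_ne (1 : Subgroup.center (R ⧸ (pm F V).subgroupOf R))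
    obtain ⟨⟨s, hsR⟩, rfl⟩ := QuotientGroup.mk_surjective cb
    have hs1 : ¬ (s ∈ pm F V) := by
      intro h
      apply hcb1
      refine Subtype.ext ?_
      show ((⟨s, hsR⟩ : R) : R ⧸ (pm F V).subgroupOf R) = 1
      rw [QuotientGroup.eq_one_iff, Subgroup.mem_subgroupOf]
      exact h
    have hsB := hPB' hsR
    refine ⟨s, hsB, fun h => hs1 (sq_one hF hd hsB h), fun g hg => ?_⟩
    have h1 := Subgroup.mem_center_iff.1 hcb ((⟨g, hle hg⟩ : R) : R ⧸ (pm F V).subgroupOf R)
    rw [← QuotientGroup.mk_mul, ← QuotientGroup.mk_mul, eq_comm, QuotientGroup.eq,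
      Subgroup.mem_subgroupOf] at h1
    have h2 : (s * g)⁻¹ * (g * s) = 1 ∨ (s * g)⁻¹ * (g * s) = LinearEquiv.neg F := h1
    rcases h2 with h2 | h2
    · left
      have h3 : g * s = s * g := (inv_mul_eq_one.1 h2).symm
      rw [h3]
      group
    · right
      have h3 : g * s = s * g * LinearEquiv.neg F := by rw [← h2]; group
      have h4 : g * s * g⁻¹ = LinearEquiv.neg F * s := by
        rw [h3, mul_assoc s g, neg_comm g, ← mul_assoc, neg_comm s]
        group
      rw [h4]
      obtain ⟨τ, hτ⟩ := exists_trace hF hd hsB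
      have h5 : g * s⁻¹ * g⁻¹ = LinearEquiv.neg F * s⁻¹ := by
        have h6 : g * s⁻¹ * g⁻¹ = (g * s * g⁻¹)⁻¹ := by group
        rw [h6, h4, mul_inv_rev, inv_eq_of_mul_eq_one_right neg_mul_self, neg_comm]
      have : Nontrivial V := Module.nontrivial_of_finrank_pos (R := F) (by omega)
      obtain ⟨v, hv⟩ := exists_ne (0 : V)
      have h6 : g (s (g⁻¹ v)) = - s v := LinearEquiv.congr_fun h4 v
      have h7 : g (s⁻¹ (g⁻¹ v)) = - s⁻¹ v := LinearEquiv.congr_fun h5 v
      have h8 := congrArg g (hτ (g⁻¹ v))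
      have h9 : g (g⁻¹ v) = v := LinearEquiv.apply_symm_apply g v
      rw [map_add, h6, h7, map_smul, h9, ← hτ v] at h8
      have h10 : (2 * τ) • v = 0 := by
        rw [mul_smul, ← hτ v, two_smul]
        nth_rewrite 1 [← h8]
        abel
      have h11 : τ = 0 := by
        rcases smul_eq_zero.1 h10 with h | h
        · exact (mul_eq_zero.1 h).resolve_left hF.two
        · exact absurd h hv
      refine LinearEquiv.ext fun x => ?_
      have h12 := hτ x
      rw [h11, zero_smul] at h12
      exact (eq_neg_of_add_eq_zero_right h12).symm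

/-- **The covering condition in dimension two, symplectic case.** -/
theorem cov_two [Finite F] [FiniteDimensional F V] (hF : Fm B (-1)) (hd : finrank F V = 2)
    {c : V ≃ₗ[F] V} {P : Subgroup (V ≃ₗ[F] V)} (hcB : c ∈ Isom B) (hc : c = 1 ∨ c * c ≠ 1)
    (hPB : P ≤ Isom B) (hP : IsPGroup 2 P)
    (hPc : ∀ g ∈ P, g * c * g⁻¹ = c ∨ g * c * g⁻¹ = c⁻¹) : Cov B (-1) c P := by
  rcases hc with rfl | hc
  · obtain ⟨s, hsB, hs, hPs⟩ := exists_normalized hF hd hPB hP
    exact ⟨invC B s, fun g hg => hg.1, one_mem _, fun g hg => ⟨hPB hg, hPs g hg⟩,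
      fszs_invC hF hd hs hsB⟩
  · refine ⟨invC B c, fun g hg => hg.1, ⟨hcB, Or.inl ?_⟩, fun g hg => ⟨hPB hg, hPc g hg⟩,
      fszs_invC hF hd hc hcB⟩
    group

end Alt

end Geo

/-- **`Hyp 2`** from the cover principle. -/
theorem hyp_two_of
    (hcvr : ∀ (F V : Type u) [Field F] [Finite F] [AddCommGroup V] [Module F V]
      [FiniteDimensional F V] (B : V →ₗ[F] V →ₗ[F] F) (ε : F), Fm B ε →
      (∀ (c : V ≃ₗ[F] V) (P : Subgroup (V ≃ₗ[F] V)), c ∈ Isom B →
        (c = 1 ∨ ((orderOf c).Prime ∧ orderOf c ≠ 2)) → Mx B c P → Cov B ε c P) →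
      FSZs (Isom B) (zel V ε)) : Hyp.{u} 2 := by
  intro F V _ _ _ _ _ B ε hF hd
  rcases hF.eps with h1 | ⟨h1, -⟩
  · subst h1
    exact fszs_two_one hF hd
  · subst h1
    refine hcvr F V B (-1) hF fun c P hc hc' hP => ?_
    refine cov_two hF hd hc ?_ hP.le hP.two hP.act
    rcases hc' with h | ⟨h, h'⟩
    · exact Or.inl h
    · right
      intro hcc
      have h2 : orderOf c ∣ 2 := orderOf_dvd_of_pow_eq_one (by rw [pow_two, hcc])
      exact h' ((Nat.prime_dvd_prime_iff_eq h Nat.prime_two).1 h2)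

end Cfsg.Agent.H467.FRSmall
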