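import Cfsg.Agent.H467.MaxClassPower2

/-!
# p-groups of maximal class: `|H : ℧_1(H)| ≤ p ^ p` for all subgroups `H` (helper467)

* `relIndex_agemo_le`: `P` of order `p ^ n` and class `n - 1`, `H ≤ P`:
  the subgroup generated by the `p`-th powers of `H` has index at most `p ^ p` in `H`.
-/

set_option autoImplicit false

namespace Cfsg.Agent.H467.MaxClass

open Subgroup
open scoped commutatorElement

universe u

variable {P : Type u} [Group P]

/-- the subgroup generated by the `p`-th powers of elements of `H` -/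
def agemo (p : ℕ) (H : Subgroup P) : Subgroup P := Subgroup.closure {y : P | ∃ h ∈ H, y = h ^ p}

theorem agemo_le (p : ℕ) (H : Subgroup P) : agemo p H ≤ H := by
  rw [agemo, Subgroup.closure_le]
  rintro _ ⟨h, hh, rfl⟩
  exact pow_mem hh p

theorem pow_mem_agemo {p : ℕ} {H : Subgroup P} {x : P} (hx : x ∈ H) : x ^ p ∈ agemo p H :=
  Subgroup.subset_closure ⟨x, hx, rfl⟩

theorem card_inf_le [Finite P] (H : Subgroup P) {K L : Subgroup P} (hKL : K ≤ L) :
    Nat.card (H ⊓ L : Subgroup P) ≤ K.relIndex L * Nat.card (H ⊓ K : Subgroup P) := by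
  have h1 : K.relIndex (H ⊓ L) ≤ K.relIndex L := by
    apply Subgroup.relIndex_le_of_le_right inf_le_right
    intro h0
    have : K.relIndex L ∣ Nat.card L := Subgroup.relIndex_dvd_card _ _
    rw [h0, zero_dvd_iff] at this
    exact Nat.card_pos.ne' this
  have h2 : (K ⊓ (H ⊓ L)) = H ⊓ K := by
    rw [inf_left_comm, inf_eq_left.mpr hKL]
  have h3 : (H ⊓ K).relIndex (H ⊓ L) = K.relIndex (H ⊓ L) := by
    rw [← h2, Subgroup.inf_relIndex_right]
  have h4 : Nat.card (H ⊓ K : Subgroup P) * (H ⊓ K).relIndex (H ⊓ L) =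
      Nat.card (H ⊓ L : Subgroup P) := by
    have := Subgroup.relIndex_mul_relIndex ⊥ (H ⊓ K) (H ⊓ L) bot_le (inf_le_inf_left H hKL)
    rwa [Subgroup.relIndex_bot_left, Subgroup.relIndex_bot_left] at this
  rw [← h4, h3, mul_comm]
  exact Nat.mul_le_mul_right _ h1

theorem mul_card_le [Finite P] {p n : ℕ} [hp : Fact p.Prime] (hP : Nat.card P = p ^ n)
    {K L : Subgroup P} (hKL : K ≤ L) (hne : ¬ L ≤ K) : p * Nat.card K ≤ Nat.card L := by
  have h4 : Nat.card K * K.relIndex L = Nat.card L := by
    have := Subgroup.relIndex_mul_relIndex ⊥ K L bot_le hKL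
    rwa [Subgroup.relIndex_bot_left, Subgroup.relIndex_bot_left] at this
  have h5 : K.relIndex L ∣ p ^ n := by
    rw [← hP]
    exact (Subgroup.relIndex_dvd_card K L).trans (Subgroup.card_subgroup_dvd_card _)
  obtain ⟨j, -, hj⟩ := (Nat.dvd_prime_pow hp.out).mp h5
  have hj0 : j ≠ 0 := by
    rintro rfl
    rw [pow_zero, Subgroup.relIndex_eq_one] at hj
    exact hne hj
  rw [← h4, hj, mul_comm]
  apply Nat.mul_le_mul_left
  calc p = p ^ 1 := (pow_one p).symm
    _ ≤ p ^ j := Nat.pow_le_pow_right hp.out.pos (by omega)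

/-- counting jumps -/
theorem MC.card_le_agemo [Finite P] {p n : ℕ} {W : ℕ → Subgroup P} (h : MC P p n W)
    [hp : Fact p.Prime] (hp3 : 3 ≤ p) (hn : p + 2 ≤ n) (H : Subgroup P) :
    Nat.card (H ⊓ W 1 : Subgroup P) ≤ p ^ (p - 1) * Nat.card (agemo p H ⊓ W p : Subgroup P) := by
  have key : ∀ d i, i + d = n - p + 1 → 1 ≤ i → Nat.card (H ⊓ W i : Subgroup P) ≤
      p ^ (p - 1) * Nat.card (agemo p H ⊓ W (i + p - 1) : Subgroup P) := by
    intro d
    induction d with
    | zero =>
      intro i hi _
      have h1 := h.card_W (p - 1) (by omega)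
      rw [show n - (p - 1) = i by omega] at h1
      calc Nat.card (H ⊓ W i : Subgroup P) ≤ Nat.card (W i) := Subgroup.card_le_of_le inf_le_right
        _ = p ^ (p - 1) * 1 := by rw [h1, mul_one]
        _ ≤ _ := Nat.mul_le_mul_left _ Nat.card_pos
    | succ d ih =>
      intro i hi hi1
      have ih' := ih (i + 1) (by omega) (by omega)
      rw [show i + 1 + p - 1 = i + p by omega] at ih'
      have hle2 : agemo p H ⊓ W (i + p) ≤ agemo p H ⊓ W (i + p - 1) :=
        inf_le_inf_left _ (h.antitone (by omega))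
      by_cases hc : H ⊓ W i ≤ W (i + 1)
      · calc Nat.card (H ⊓ W i : Subgroup P) ≤ Nat.card (H ⊓ W (i + 1) : Subgroup P) :=
              Subgroup.card_le_of_le (le_inf inf_le_left hc)
          _ ≤ _ := ih'
          _ ≤ _ := Nat.mul_le_mul_left _ (Subgroup.card_le_of_le hle2)
      · obtain ⟨x, ⟨hxH, hxW⟩, hx'⟩ := SetLike.not_le_iff_exists.mp hc
        have h1 : x ^ p ∈ W (i + p - 1) := h.pow_mem_one hp3 hn hi1 hxW
        have h2 : x ^ p ∉ W (i + p) := h.pow_notMem_one hp3 hn hi1 (by omega) hxW hx'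
        have h3 : ¬ (agemo p H ⊓ W (i + p - 1) ≤ agemo p H ⊓ W (i + p)) := by
          intro hle
          exact h2 (hle ⟨pow_mem_agemo hxH, h1⟩).2
        have h4 := mul_card_le h.card_group hle2 h3
        have h5 := card_inf_le H (h.le_succ i)
        rw [h.relIndex i (by omega)] at h5
        calc Nat.card (H ⊓ W i : Subgroup P) ≤ p * Nat.card (H ⊓ W (i + 1) : Subgroup P) := h5
          _ ≤ p * (p ^ (p - 1) * Nat.card (agemo p H ⊓ W (i + p) : Subgroup P)) :=
            Nat.mul_le_mul_left _ ih'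
          _ = p ^ (p - 1) * (p * Nat.card (agemo p H ⊓ W (i + p) : Subgroup P)) := by ring
          _ ≤ _ := Nat.mul_le_mul_left _ h4
  have := key (n - p) 1 (by omega) le_rfl
  rwa [show 1 + p - 1 = p by omega] at this

/-- In a group of maximal class, `|H : ℧_1(H)| ≤ p ^ p` for all subgroups `H`. -/
theorem relIndex_agemo_le [Finite P] {p n : ℕ} [hp : Fact p.Prime] (hP : Nat.card P = p ^ n)
    (hc : Group.nilpotencyClass P = n - 1) (H : Subgroup P) :
    (agemo p H).relIndex H ≤ p ^ p := by
  have hp2 := hp.out.two_le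
  have hsmall : Nat.card H ≤ p ^ p → (agemo p H).relIndex H ≤ p ^ p := fun hH =>
    (Nat.le_of_dvd Nat.card_pos (Subgroup.relIndex_dvd_card _ _)).trans hH
  have hHdvd : Nat.card H ∣ p ^ n := by rw [← hP]; exact Subgroup.card_subgroup_dvd_card _
  obtain ⟨a, han, ha⟩ := (Nat.dvd_prime_pow hp.out).mp hHdvd
  rcases Nat.lt_or_ge p a with hap | hap
  swap
  · apply hsmall
    rw [ha]
    exact Nat.pow_le_pow_right hp.out.pos hap
  have hfin : ∀ c : ℕ, Nat.card H ≤ c * Nat.card (agemo p H) → (agemo p H).relIndex H ≤ c := by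
    intro c hc'
    have h4 : Nat.card (agemo p H) * (agemo p H).relIndex H = Nat.card H := by
      have := Subgroup.relIndex_mul_relIndex ⊥ (agemo p H) H bot_le (agemo_le p H)
      rwa [Subgroup.relIndex_bot_left, Subgroup.relIndex_bot_left] at this
    rw [← h4, mul_comm c] at hc'
    exact Nat.le_of_mul_le_mul_left hc' Nat.card_pos
  rcases Nat.lt_or_ge p 3 with hp3 | hp3
  · -- `p = 2`
    have hp2' : p = 2 := by omega
    subst hp2'
    rcases Nat.lt_or_ge n 4 with hn4 | hn4
    · -- order 8
      have hn3 : n = 3 := by omega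
      have ha3 : a = 3 := by omega
      subst hn3 ha3
      have hHt : H = ⊤ := Subgroup.eq_top_of_card_eq _ (by rw [ha, hP])
      apply hfin
      rw [ha]
      suffices 2 ≤ Nat.card (agemo 2 H) by
        calc 2 ^ 3 = 2 ^ 2 * 2 := by norm_num
          _ ≤ _ := Nat.mul_le_mul_left _ this
      by_contra hlt
      have h1 : Nat.card (agemo 2 H) = 1 := by
        have : 0 < Nat.card (agemo 2 H) := Nat.card_pos
        omega
      have h2 : agemo 2 H = ⊥ := Subgroup.card_eq_one.mp h1
      have h3 : ∀ x : P, x ^ 2 = 1 := by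
        intro x
        rw [← Subgroup.mem_bot, ← h2]
        apply pow_mem_agemo
        rw [hHt]; trivial
      have hPG : IsPGroup 2 P := IsPGroup.of_card hP
      have hnil : Group.IsNilpotent P := hPG.isNilpotent
      have h4 : ∀ x y : P, x * y = y * x := by
        intro x y
        have hinv : ∀ z : P, z⁻¹ = z := fun z => by
          rw [inv_eq_iff_mul_eq_one, ← pow_two]; exact h3 z
        calc x * y = (x * y)⁻¹ := (hinv _).symm
          _ = y⁻¹ * x⁻¹ := mul_inv_rev x y
          _ = y * x := by rw [hinv, hinv]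
      have h5 : (⊤ : Subgroup P).lowerCentralSeries 1 = ⊥ := by
        rw [eq_bot_iff]
        change ⁅(⊤ : Subgroup P), (⊤ : Subgroup P)⁆ ≤ ⊥
        rw [commutator_le]
        intro x _ y _
        rw [Subgroup.mem_bot, commutatorElement_eq_one_iff_mul_comm]
        exact h4 x y
      rw [Subgroup.lowerCentralSeries_eq_bot_iff_nilpotencyClass_le] at h5
      omega
    · obtain ⟨C, hCc, hCi⟩ :=
        Cfsg.Agent.Transfer.MaximalClass.exists_isCyclic_index_two_of_maxClass n (by omega) P hP hc
      apply hfin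
      have h1 := card_inf_le H (le_top (a := C))
      rw [inf_top_eq, Subgroup.relIndex_top_right, hCi] at h1
      -- the squares of `H ⊓ C`
      have hcyc : IsCyclic (H ⊓ C : Subgroup P) := by
        have hle : (H ⊓ C : Subgroup P) ≤ C := inf_le_right
        exact isCyclic_of_injective (Subgroup.inclusion hle) (Subgroup.inclusion_injective hle)
      obtain ⟨⟨g, hg⟩, hgen⟩ := hcyc.exists_generator
      have hz : (H ⊓ C : Subgroup P) = Subgroup.zpowers g := by
        apply le_antisymm
        · intro x hx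
          obtain ⟨k, hk⟩ := Subgroup.mem_zpowers_iff.mp (hgen ⟨x, hx⟩)
          exact Subgroup.mem_zpowers_iff.mpr ⟨k, congrArg Subtype.val hk⟩
        · rw [Subgroup.zpowers_le]; exact hg
      have h2 : Nat.card (H ⊓ C : Subgroup P) ≤ 2 * Nat.card (agemo 2 H) := by
        have h3 : Subgroup.zpowers (g ^ 2) ≤ agemo 2 H := by
          rw [Subgroup.zpowers_le]; exact pow_mem_agemo hg.1
        have h4 := Subgroup.card_le_of_le h3
        rw [hz, Nat.card_zpowers]
        rw [Nat.card_zpowers] at h4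
        have h5 : orderOf g ≤ 2 * orderOf (g ^ 2) := by
          have h6 : orderOf g ∣ 2 * orderOf (g ^ 2) := by
            apply orderOf_dvd_of_pow_eq_one
            rw [pow_mul, pow_orderOf_eq_one]
          exact Nat.le_of_dvd (by have := orderOf_pos (g ^ 2); omega) h6
        omega
      calc Nat.card H ≤ 2 * Nat.card (H ⊓ C : Subgroup P) := h1
        _ ≤ 2 * (2 * Nat.card (agemo 2 H)) := Nat.mul_le_mul_left _ h2
        _ = 2 ^ 2 * Nat.card (agemo 2 H) := by ring
  · -- `p` odd
    have h := chain_mc hP hc (by omega)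
    rcases Nat.lt_or_ge n (p + 2) with hn | hn
    · have hn1 : n = p + 1 := by omega
      have ha1 : a = p + 1 := by omega
      have hHt : H = ⊤ := Subgroup.eq_top_of_card_eq _ (by rw [ha, hP, hn1, ha1])
      apply hfin
      obtain ⟨x, hx⟩ := h.exists_pow_ne_one hp3 hn1
      have h1 : ¬ (agemo p H ≤ ⊥) := by
        intro hle
        apply hx
        rw [← Subgroup.mem_bot]
        exact hle (pow_mem_agemo (by rw [hHt]; trivial))
      have h2 := mul_card_le hP bot_le h1
      rw [Subgroup.card_bot, mul_one] at h2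
      calc Nat.card H = p ^ p * p := by rw [ha, ha1, pow_succ]
        _ ≤ _ := Nat.mul_le_mul_left _ h2
    · apply hfin
      have h1 := card_inf_le H (h.le_succ 0)
      rw [h.relIndex 0 (by omega), h.zero, inf_top_eq, zero_add] at h1
      calc Nat.card H ≤ p * Nat.card (H ⊓ chain P 1 : Subgroup P) := h1
        _ ≤ p * (p ^ (p - 1) * Nat.card (agemo p H ⊓ chain P p : Subgroup P)) :=
          Nat.mul_le_mul_left _ (h.card_le_agemo hp3 hn H)
        _ = p ^ p * Nat.card (agemo p H ⊓ chain P p : Subgroup P) := by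
          rw [← mul_assoc, ← pow_succ', show p - 1 + 1 = p by omega]
        _ ≤ _ := Nat.mul_le_mul_left _ (Subgroup.card_le_of_le inf_le_left)

end Cfsg.Agent.H467.MaxClass
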