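import Cfsg.Agent.H467.OddNormRow
import Cfsg.Agent.H712.GmnMin
import Cfsg.Agent.H961.CopRed
import Cfsg.Agent.S0205

/-!
# Groups with a Sylow normaliser of odd order: the reduction to simple groups (S3855; helper467)

* `exists_normalizer` : `T` a simple direct factor of a normal subgroup, `g ∈ T` normalising the group of automorphisms
  of `T` induced by `N_R(T)`, `R` a Sylow `p`-subgroup of `G`: an element of `N_G(R)` acts on `T` like a conjugate of `g`
  (the argument of helper712);
* `factor` : if `|N_G(R)|` is odd and the row holds for `T` then `Q p T`;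
* `reduction` : S3855 from the rows.
-/

set_option autoImplicit false

namespace Cfsg.Agent.H467.OddNormRed

open Cfsg Subgroup
open scoped Pointwise
open Cfsg.Agent.H712 Cfsg.Agent.H712.GmnMin
open Cfsg.Agent.H467.OddNorm (Ev)
open Cfsg.Agent.H566 (NSim Fx Stab rest)
open Cfsg.Agent.H961.CompFac (Inv compK_iff compK_ext compK_of_sSup)

universe u

section Lift

variable {G : Type*} [Group G] [Finite G] {p : ℕ} [Fact p.Prime] (R : Sylow p G) {N T : Subgroup G}

/-- an element normalising `indT R T` comes from `N_G(R)` -/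
theorem exists_normalizer (h : Hyp N T) {g : T}
    (hgN : ∀ a ∈ indT R T, MulAut.conj g * a * (MulAut.conj g)⁻¹ ∈ indT R T) :
    ∃ w ∈ normalizer ((R : Subgroup G) : Set G), ∃ (x : G) (f : T), (f : G) = x * g * x⁻¹ ∧
      ∀ t : T, w * t * w⁻¹ = f * t * (f : G)⁻¹ := by
  classical
  -- the `R`-orbit of `T`
  set I : Finset (Subgroup G) := (Set.toFinite {L : Subgroup G | ∃ x ∈ R, MulAut.conj x • T = L}).toFinset
    with hIdef
  have hmem : ∀ L, L ∈ I ↔ ∃ x ∈ R, MulAut.conj x • T = L := by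
    intro L
    simp [hIdef]
  have hH : ∀ L ∈ I, Hyp N L := by
    intro L hL
    obtain ⟨x, -, rfl⟩ := (hmem L).1 hL
    exact h.conj x
  have hI : ∀ L ∈ I, ∀ L' ∈ I, L ≠ L' → L ≤ centralizer (L' : Set G) :=
    fun L hL L' hL' hne => (hH L hL).comm (hH L' hL') hne
  have hconjI : ∀ x ∈ R, ∀ L ∈ I, MulAut.conj x • L ∈ I := by
    intro x hx L hL
    obtain ⟨y, hy, rfl⟩ := (hmem L).1 hL
    rw [hmem]
    exact ⟨x * y, R.mul_mem hx hy, by rw [map_mul, mul_smul]⟩
  choose! xs hxsP hxsL using fun L (hL : L ∈ I) => (hmem L).1 hL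
  set f : Subgroup G → G := fun L => xs L * g * (xs L)⁻¹ with hf
  have hfL : ∀ L ∈ I, f L ∈ L := by
    intro L hL
    have h1 : f L ∈ MulAut.conj (xs L) • T := ⟨(g : G), g.2, rfl⟩
    rwa [hxsL L hL] at h1
  obtain ⟨w, -, hwI, hw⟩ := Cfsg.Agent.H142.GmnPC.exists_prod I hI f hfL ⊤ (fun L _ => mem_top _)
  have hconjC : ∀ (x : G) (L : Subgroup G) (c : G), c ∈ centralizer ((MulAut.conj x⁻¹ • L : Subgroup G) : Set G) →
      x * c * x⁻¹ ∈ centralizer (L : Set G) := by
    intro x L c hc
    rw [mem_centralizer_iff] at hc ⊢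
    intro l hl
    have h1 := hc (x⁻¹ * l * x) ⟨l, hl, by simp⟩
    calc l * (x * c * x⁻¹) = x * ((x⁻¹ * l * x) * c) * x⁻¹ := by group
      _ = x * (c * (x⁻¹ * l * x)) * x⁻¹ := by rw [h1]
      _ = x * c * x⁻¹ * l := by group
  have hconjM : ∀ x ∈ R, ∀ m ∈ (⨆ L ∈ I, L), x * m * x⁻¹ ∈ (⨆ L ∈ I, L) := by
    intro x hx m hm
    have h1 : (⨆ L ∈ I, L) ≤ (⨆ L ∈ I, L).comap (MulAut.conj x).toMonoidHom := by
      refine iSup₂_le fun L hL l hl => ?_
      rw [mem_comap]
      refine (le_iSup₂_of_le (MulAut.conj x • L) (hconjI x hx L hL) le_rfl : MulAut.conj x • L ≤ _) ?_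
      exact ⟨l, hl, rfl⟩
    exact h1 hm
  -- `w` normalises `R`
  have hwP : ∀ x ∈ R, w⁻¹ * (x * w * x⁻¹) ∈ (R : Subgroup G) := by
    intro x hx
    set L' : Subgroup G → Subgroup G := fun L => MulAut.conj x⁻¹ • L with hL'
    have hL'I : ∀ L ∈ I, L' L ∈ I := fun L hL => hconjI x⁻¹ (R.inv_mem hx) L hL
    set q : Subgroup G → G := fun L => (f L)⁻¹ * (x * f (L' L) * x⁻¹) with hq
    have hqP : ∀ L ∈ I, q L ∈ (R : Subgroup G) ∧ q L ∈ L := by
      intro L hL
      set a := xs L
      set b := xs (L' L)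
      have ha : a ∈ R := hxsP L hL
      have hb : b ∈ R := hxsP _ (hL'I L hL)
      set y := a⁻¹ * (x * b) with hy
      have hyP : y ∈ R := R.mul_mem (R.inv_mem ha) (R.mul_mem hx hb)
      have hyK : MulAut.conj y • T = T := by
        rw [hy, map_mul, map_mul, mul_smul, mul_smul, hxsL _ (hL'I L hL), hL']
        simp only [map_inv, smul_inv_smul]
        rw [inv_smul_eq_iff, hxsL L hL]
      have hyN : y ∈ normalizer (T : Set G) := mem_normalizer_iff_smul.2 hyK
      have h1 : q L = a * ((g : G)⁻¹ * (y * g * y⁻¹)) * a⁻¹ := by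
        change (a * (g : G) * a⁻¹)⁻¹ * (x * (b * (g : G) * b⁻¹) * x⁻¹) = _
        rw [hy]
        group
      constructor
      · rw [h1]
        exact R.mul_mem (R.mul_mem ha (key R h hgN hyP hyN)) (R.inv_mem ha)
      · have h2 : q L ∈ MulAut.conj a • T := by
          refine ⟨(g : G)⁻¹ * (y * g * y⁻¹), mul_mem (inv_mem g.2) ((mem_normalizer_iff.mp hyN _).mp g.2), ?_⟩
          rw [h1]
          rfl
        rwa [hxsL L hL] at h2
    obtain ⟨r, hrP, hrI, hr⟩ := Cfsg.Agent.H142.GmnPC.exists_prod I hI q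
      (fun L hL => (hqP L hL).2) R (fun L hL => (hqP L hL).1)
    -- `r⁻¹ v` centralises all the factors
    set v := w⁻¹ * (x * w * x⁻¹) with hv
    have hvE : r⁻¹ * v ∈ (⨆ L ∈ I, L) :=
      mul_mem (inv_mem hrI) (mul_mem (inv_mem hwI) (hconjM x hx w hwI))
    have hvC : ∀ L ∈ I, r⁻¹ * v ∈ centralizer (L : Set G) := by
      intro L hLI
      have h1 := hw L hLI
      have h2 := hconjC x L _ (hw (L' L) (hL'I L hLI))
      have h3 := hr L hLI
      have h4 : ((f L)⁻¹ * w)⁻¹ * q L = q L * ((f L)⁻¹ * w)⁻¹ :=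
        (mem_centralizer_iff.mp (inv_mem h1) (q L) (hqP L hLI).2).symm
      have h5 : r⁻¹ * v = ((q L)⁻¹ * r)⁻¹ * (((f L)⁻¹ * w)⁻¹ * (x * ((f (L' L))⁻¹ * w) * x⁻¹)) := by
        have h6 : v = (((f L)⁻¹ * w)⁻¹ * q L) * (x * ((f (L' L))⁻¹ * w) * x⁻¹) := by
          simp only [hv, hq]
          group
        rw [h6, h4]
        group
      rw [h5]
      exact mul_mem (inv_mem h3) (mul_mem (inv_mem h1) h2)
    have h6 := Hyp.eq_one_of_iSup I hH hvE hvC
    have h7 : v = r * (r⁻¹ * v) := by group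
    rw [h7, h6, mul_one]
    exact hrP
  have hwN : w ∈ normalizer ((R : Subgroup G) : Set G) := by
    have h1 : w⁻¹ ∈ normalizer ((R : Subgroup G) : Set G) := by
      apply mem_normalizer_fintype
      intro x hx
      have h2 := R.mul_mem (hwP x hx) hx
      have h3 : w⁻¹ * (x * w * x⁻¹) * x = w⁻¹ * x * w⁻¹⁻¹ := by group
      rwa [h3] at h2
    simpa using inv_mem h1
  -- restrict to `T`
  have hTI : T ∈ I := (hmem T).2 ⟨1, R.one_mem, by simp⟩
  have hc0 := hw T hTI
  refine ⟨w, hwN, xs T, ⟨f T, hfL T hTI⟩, rfl, fun t => ?_⟩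
  show w * t * w⁻¹ = f T * t * (f T)⁻¹
  have h1 : (t : G) * ((f T)⁻¹ * w) = ((f T)⁻¹ * w) * t := mem_centralizer_iff.1 hc0 t t.2
  symm
  calc f T * t * (f T)⁻¹ = f T * (t * ((f T)⁻¹ * w)) * w⁻¹ := by group
    _ = f T * (((f T)⁻¹ * w) * t) * w⁻¹ := by rw [h1]
    _ = w * t * w⁻¹ := by group

/-- an involution of `T` normalising `indT R T` gives `|N_G(R)|` even -/
theorem even_normalizer (h : Hyp N T) {g : T} (hg : orderOf g = 2)
    (hgN : ∀ a ∈ indT R T, MulAut.conj g * a * (MulAut.conj g)⁻¹ ∈ indT R T) :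
    ¬ Odd (Nat.card ↥(normalizer ((R : Subgroup G) : Set G))) := by
  intro hodd
  obtain ⟨w, hw, x, f, hf, hwt⟩ := exists_normalizer R h hgN
  have hwo : Odd (orderOf w) := by
    have h1 : orderOf (⟨w, hw⟩ : ↥(normalizer ((R : Subgroup G) : Set G))) ∣ _ := orderOf_dvd_natCard _
    rw [Subgroup.orderOf_mk] at h1
    exact Odd.of_dvd_nat hodd h1
  obtain ⟨k, hk⟩ := hwo
  have hpow : ∀ n : ℕ, ∀ t : T, w ^ n * t * (w ^ n)⁻¹ = (f : G) ^ n * t * ((f : G) ^ n)⁻¹ := by
    intro n
    induction n with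
    | zero => intro t; simp
    | succ n ih =>
      intro t
      have h1 := ih t
      have h2 := hwt (f ^ n * t * (f ^ n)⁻¹)
      simp only [coe_mul, coe_inv, coe_pow] at h2
      calc w ^ (n + 1) * t * (w ^ (n + 1))⁻¹ = w * (w ^ n * t * (w ^ n)⁻¹) * w⁻¹ := by rw [pow_succ']; group
        _ = w * ((f : G) ^ n * t * ((f : G) ^ n)⁻¹) * w⁻¹ := by rw [h1]
        _ = f * ((f : G) ^ n * t * ((f : G) ^ n)⁻¹) * (f : G)⁻¹ := h2
        _ = _ := by rw [pow_succ']; group
  have hf2 : (f : G) ^ 2 = 1 := by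
    have hg2 : (g : G) ^ 2 = 1 := by
      have := pow_orderOf_eq_one g
      rw [hg] at this
      exact congrArg Subtype.val this
    rw [hf, conj_pow, hg2]
    group
  have hfc : (f : G) ∈ centralizer (T : Set G) := by
    rw [mem_centralizer_iff]
    intro t ht
    have h1 := hpow (orderOf w) ⟨t, ht⟩
    rw [pow_orderOf_eq_one, hk, pow_succ, pow_mul, hf2, one_pow, one_mul] at h1
    simp only [one_mul, inv_one, mul_one] at h1
    calc t * (f : G) = (f : G) * t * (f : G)⁻¹ * f := by rw [← h1]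
      _ = f * t := by group
  have h1 := h.eq_one f.2 hfc
  rw [hf] at h1
  have h2 : (g : G) = 1 := by
    calc (g : G) = x⁻¹ * (x * g * x⁻¹) * x := by group
      _ = 1 := by rw [h1]; group
  have h3 : g = 1 := Subtype.ext h2
  rw [h3, orderOf_one] at hg
  omega

end Lift

/-- the conclusion of S3855 for the simple group `S` -/
def QQ (p : ℕ) (S : Type u) [Group S] : Prop :=
  p ∣ Nat.card S ∧ ((∀ Q : Sylow p S, IsCyclic ↥Q) ∨
    ∃ (F : Type) (_ : Field F) (_ : Fintype F), (∃ f : ℕ, Fintype.card F = p ^ f) ∧ Fintype.card F % 4 = 3 ∧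
      Nonempty (S ≃* Matrix.ProjectiveSpecialLinearGroup (Fin 2) F))

theorem cyclic_congr {p : ℕ} {S T : Type u} [Group S] [Group T] (e : S ≃* T)
    (h : ∀ P : Sylow p S, IsCyclic P) (Q : Sylow p T) : IsCyclic Q := by
  obtain ⟨P, hP⟩ : ∃ P : Sylow p S, (P : Subgroup S) = (Q : Subgroup T).comap e.toMonoidHom :=
    ⟨Q.comapOfInjective e.toMonoidHom e.injective (by
      rw [MonoidHom.range_eq_top.2 e.surjective]
      exact le_top), rfl⟩
  have h1 := h P
  have hmem' : ∀ x : S, x ∈ (P : Subgroup S) → e x ∈ (Q : Subgroup T) := by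
    intro x h2
    rw [hP] at h2
    exact h2
  have hmem : ∀ x : ↥(P : Subgroup S), e (x : S) ∈ (Q : Subgroup T) := fun x => hmem' x x.2
  let f : ↥(P : Subgroup S) →* ↥(Q : Subgroup T) :=
    { toFun := fun x => ⟨e (x : S), hmem x⟩
      map_one' := Subtype.ext (map_one e)
      map_mul' := fun a b => Subtype.ext (map_mul e _ _) }
  refine isCyclic_of_surjective f (fun y => ?_)
  have h3 : e.symm (y : T) ∈ (P : Subgroup S) := by
    rw [hP]
    show e (e.symm (y : T)) ∈ (Q : Subgroup T)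
    rw [e.apply_symm_apply]
    exact y.2
  exact ⟨⟨e.symm (y : T), h3⟩, Subtype.ext (e.apply_symm_apply _)⟩

theorem inv_QQ (p : ℕ) : Inv (fun (S : Type u) _ => QQ p S) := by
  intro X Y _ _ e h
  refine ⟨Nat.card_congr e.toEquiv ▸ h.1, ?_⟩
  rcases h.2 with h | ⟨F, i1, i2, h1, h2, ⟨e'⟩⟩
  · exact Or.inl (cyclic_congr e h)
  · exact Or.inr ⟨F, i1, i2, h1, h2, ⟨e.symm.trans e'⟩⟩

variable {p : ℕ} [Fact p.Prime]

/-- the rows -/
def Rows (p : ℕ) : Prop := ∀ (S : Type u) [Group S] [Finite S] [IsSimpleGroup S], (¬ ∀ a b : S, a * b = b * a) →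
  p ∣ Nat.card S → OddNorm.Row p S

/-- coprime groups of automorphisms of simple groups have fixed points of even order (`H566.rich_aut`, from S0000) -/
def RichAll : Prop := ∀ (S : Type u) [Group S] [Finite S] [IsSimpleGroup S], (¬ ∀ a b : S, a * b = b * a) →
  ∀ A : Subgroup (MulAut S), (Nat.card A).Coprime (Nat.card S) → Even (Nat.card (Fx A))

/-- **The simple direct factors.** -/
theorem factor (hK : RichAll.{u}) (hrow : Rows.{u} p) {G : Type u} [Group G] [Finite G] (R : Sylow p G)
    (hodd : Odd (Nat.card ↥(normalizer ((R : Subgroup G) : Set G)))) {N T : Subgroup G} (h : Hyp N T) : QQ p T := by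
  have hs := h.simple
  have hZ := h.center_eq
  have hfin : Finite (MulAut T) := Gmn.finite_mulAut (S := T)
  by_cases hd : p ∣ Nat.card T
  · refine ⟨hd, ?_⟩
    rcases hrow T h.nonab hd with hc | hc | hc
    · exact Or.inl hc
    · exact Or.inr hc
    · exfalso
      obtain ⟨t, ht, htn⟩ := hc.all (Q := indT R T) (isPGroup_indT R) (by
        intro hdv
        have h1 : ((sylT R h : Subgroup T).map (MulAut.conj : T →* MulAut T)) ≤ indT R T := by
          rintro _ ⟨x, hx, rfl⟩
          exact conj_mem_indT R hx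
        have h2 := hdv.trans (relIndex_dvd_of_le_left (MulAut.conj : T →* MulAut T).range h1)
        rw [MonoidHom.range_eq_map, relIndex_map_map_of_injective _ _ (OddNorm.conj_injective hZ),
          relIndex_top_right] at h2
        exact (sylT R h).not_dvd_index h2)
      exact even_normalizer R h ht (fun a ha => (Subgroup.mem_normalizer_iff.1 htn a).1 ha) hodd
  · exfalso
    have hcop : (Nat.card ↥(indT R T)).Coprime (Nat.card T) := by
      obtain ⟨k, hk⟩ := IsPGroup.iff_card.1 (isPGroup_indT R (T := T))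
      rw [hk]
      exact Nat.Coprime.pow_left k ((Nat.Prime.coprime_iff_not_dvd Fact.out).2 hd)
    have h1 := hK T h.nonab (indT R T) hcop
    obtain ⟨g, hg⟩ := exists_prime_orderOf_dvd_card' (G := Fx (indT R T)) 2 h1.two_dvd
    refine even_normalizer R h (g := (g : T)) (by rw [Subgroup.orderOf_coe]; exact hg) ?_ hodd
    intro a ha
    have h2 : a * MulAut.conj (g : T) * a⁻¹ = MulAut.conj (g : T) := by
      rw [OddNorm.conj_conj, g.2 a ha]
    have h3 : MulAut.conj (g : T) * a * (MulAut.conj (g : T))⁻¹ = a := by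
      calc MulAut.conj (g : T) * a * (MulAut.conj (g : T))⁻¹
          = (a * MulAut.conj (g : T) * a⁻¹) * a * (MulAut.conj (g : T))⁻¹ := by rw [h2]
        _ = a := by group
    rw [h3]
    exact ha

/-- the normaliser of a Sylow subgroup of a quotient -/
theorem normalizer_quotient {G : Type u} [Group G] [Finite G] (R : Sylow p G) (M : Subgroup G) [M.Normal] :
    normalizer (((R : Subgroup G).map (QuotientGroup.mk' M) : Subgroup (G ⧸ M)) : Set (G ⧸ M)) ≤
      (normalizer ((R : Subgroup G) : Set G)).map (QuotientGroup.mk' M) := by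
  intro xb hx
  obtain ⟨x, rfl⟩ := QuotientGroup.mk'_surjective M xb
  set K : Subgroup G := (R : Subgroup G) ⊔ M with hK
  have hcm : ((R : Subgroup G).map (QuotientGroup.mk' M)).comap (QuotientGroup.mk' M) = K := by
    rw [comap_map_eq, QuotientGroup.ker_mk']
  have hRK : (R : Subgroup G) ≤ K := le_sup_left
  have h2 : ((x • R : Sylow p G) : Subgroup G) ≤ K := by
    rw [← hcm]
    rintro _ ⟨r, hr, rfl⟩
    rw [mem_comap]
    have h3 := (Subgroup.mem_normalizer_iff.1 hx (QuotientGroup.mk' M r)).1 ⟨r, hr, rfl⟩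
    simpa using h3
  obtain ⟨k, hk⟩ := MulAction.exists_smul_eq K ((x • R : Sylow p G).subtype h2) (R.subtype hRK)
  rw [Sylow.smul_subtype] at hk
  have h3 := Sylow.subtype_injective hk
  have h4 : ((k : G) * x) ∈ normalizer ((R : Subgroup G) : Set G) := by
    refine Sylow.smul_eq_iff_mem_normalizer.1 ?_
    rw [mul_smul]
    exact h3
  have h5 : QuotientGroup.mk' M (k : G) ∈ (normalizer ((R : Subgroup G) : Set G)).map (QuotientGroup.mk' M) := by
    have h6 : (k : G) ∈ ((R : Subgroup G).map (QuotientGroup.mk' M)).comap (QuotientGroup.mk' M) := by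
      rw [hcm]; exact k.2
    exact map_mono le_normalizer h6
  have h6 : QuotientGroup.mk' M x = (QuotientGroup.mk' M (k : G))⁻¹ * QuotientGroup.mk' M ((k : G) * x) := by
    rw [map_mul]; group
  rw [h6]
  exact mul_mem (inv_mem h5) ⟨_, h4, rfl⟩

theorem odd_quotient {G : Type u} [Group G] [Finite G] (R : Sylow p G) (M : Subgroup G) [M.Normal]
    (hodd : Odd (Nat.card ↥(normalizer ((R : Subgroup G) : Set G)))) :
    Odd (Nat.card ↥(normalizer (((R.mapSurjective (QuotientGroup.mk'_surjective M) : Sylow p (G ⧸ M)) :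
      Subgroup (G ⧸ M)) : Set (G ⧸ M)))) := by
  refine Odd.of_dvd_nat hodd ?_
  refine (card_dvd_of_le (normalizer_quotient R M)).trans ?_
  exact card_map_dvd _ _

/-- **The case of `p` odd.** -/
theorem main (hK : RichAll.{u}) (hrow : Rows.{u} p) : ∀ (G : Type u) [Group G] [Finite G] (R : Sylow p G),
    Odd (Nat.card ↥(normalizer ((R : Subgroup G) : Set G))) → IsCompositionKGroupWith (fun S _ => QQ p S) G := by
  intro G _ _
  induction hn : Nat.card G using Nat.strong_induction_on generalizing G with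
  | _ n ih =>
  subst hn
  intro R hodd
  rcases subsingleton_or_nontrivial G with hsub | hnt
  · exact Cfsg.Agent.H961.CopRed.compK_of_comm (inv_QQ p) fun a b => Subsingleton.elim _ _
  -- a minimal normal subgroup
  obtain ⟨M, hM⟩ := (Set.toFinite {M : Subgroup G | M.Normal ∧ M ≠ ⊥}).exists_minimal ⟨⊤, inferInstance, by
    intro h
    exact (bot_ne_top (α := Subgroup G)) h.symm⟩
  have hMn : M.Normal := hM.prop.1
  have hMb : M ≠ ⊥ := hM.prop.2
  have hmin : ∀ N : Subgroup G, N.Normal → N ≤ M → N ≠ ⊥ → N = M := fun N hN hle hb =>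
    le_antisymm hle (hM.le_of_le ⟨hN, hb⟩ hle)
  refine compK_ext (inv_QQ p) M ?_ (ih _ ?_ (G ⧸ M) rfl _ (odd_quotient R M hodd))
  · -- `M`
    by_cases hna : ∀ a b : M, a * b = b * a
    · exact Cfsg.Agent.H961.CopRed.compK_of_comm (inv_QQ p) hna
    · set A : Subgroup (MulAut M) := (MulAut.conjNormal (H := M)).range with hA
      have hmin' : ∀ N : Subgroup M, N.Normal → Stab A N → N = ⊥ ∨ N = ⊤ := by
        intro N _ hst
        by_cases hb : N = ⊥
        · exact Or.inl hb
        · right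
          have h1 : (N.map M.subtype).Normal := by
            refine ⟨?_⟩
            rintro _ ⟨x, hx, rfl⟩ g
            exact ⟨MulAut.conjNormal g x, hst _ ⟨g, rfl⟩ x hx, rfl⟩
          have h2 := hmin (N.map M.subtype) h1 (map_subtype_le N) (by
            rw [Ne, map_eq_bot_iff_of_injective _ M.subtype_injective]; exact hb)
          rw [eq_top_iff]
          intro x _
          have h3 : (x : G) ∈ N.map M.subtype := by rw [h2]; exact x.2
          obtain ⟨y, hy, hxy⟩ := h3
          rwa [← Subtype.ext hxy]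
      obtain ⟨T, hT⟩ := Cfsg.Agent.H566.exists_nsim hna hmin'
      apply compK_of_sSup (inv_QQ p)
      have hkey : ∀ T' ∈ NSim M, QQ p T' := by
        intro T' hT'
        have hT's := hT'.2.1
        have hT'n := hT'.1
        let e : ↥T' ≃* ↥(T'.map M.subtype) := T'.equivMapOfInjective M.subtype M.subtype_injective
        have hyp : Hyp M (T'.map M.subtype) := by
          refine ⟨hMn, map_subtype_le T', ?_, e.symm.isSimpleGroup, ?_⟩
          · intro m hm
            rw [Subgroup.mem_normalizer_iff]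
            intro x
            constructor
            · rintro ⟨y, hy, rfl⟩
              exact ⟨⟨m, hm⟩ * y * ⟨m, hm⟩⁻¹, hT'n.conj_mem y hy _, rfl⟩
            · rintro ⟨y, hy, hyx⟩
              refine ⟨⟨m, hm⟩⁻¹ * y * ⟨m, hm⟩⁻¹⁻¹, hT'n.conj_mem y hy _, ?_⟩
              have h5 : x = m⁻¹ * (m * x * m⁻¹) * m := by group
              rw [h5, ← hyx]
              simp
          · intro hab
            refine hT'.2.2 fun a ha b hb => ?_
            have := e.injective (by
              rw [map_mul, map_mul]; exact hab _ _ : e (⟨a, ha⟩ * ⟨b, hb⟩) = e (⟨b, hb⟩ * ⟨a, ha⟩))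
            exact congrArg Subtype.val this
        exact inv_QQ p _ _ e.symm (factor hK hrow R hodd hyp)
      have h1 : {T' : Subgroup M | T' ∈ NSim M ∧ QQ p T'} = NSim M := by
        ext T'
        exact ⟨fun h => h.1, fun h => ⟨h, hkey T' h⟩⟩
      rw [h1]
      have hst : ∀ α : MulAut M, (sSup (NSim M)).map α.toMonoidHom ≤ sSup (NSim M) := by
        intro α
        rw [(Subgroup.gc_map_comap α.toMonoidHom).l_sSup]
        exact iSup₂_le fun T' hT' => le_sSup (Cfsg.Agent.H566.NSim.map hT' α)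
      have hn : (sSup (NSim M)).Normal := by
        constructor
        intro x hx g
        have h2 := hst (MulAut.conj g) (Subgroup.mem_map_of_mem (MulAut.conj g).toMonoidHom hx)
        exact h2
      rcases hmin' _ hn (fun α _ g hg => hst α (Subgroup.mem_map_of_mem α.toMonoidHom hg)) with h2 | h2
      · exfalso
        have h3 : T ≤ ⊥ := by rw [← h2]; exact le_sSup hT
        apply hT.2.2
        intro a ha b hb
        rw [Subgroup.mem_bot.1 (h3 ha), Subgroup.mem_bot.1 (h3 hb)]
      · exact h2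
  · have h2 : 1 < Nat.card M := by
      rw [Subgroup.one_lt_card_iff_ne_bot]; exact hMb
    have h3 := Subgroup.card_eq_card_quotient_mul_card_subgroup M
    have h4 : 0 < Nat.card (G ⧸ M) := Nat.card_pos
    nlinarith

/-- **The case `p = 2`.** -/
theorem main_two {G : Type u} [Group G] [Finite G] (R : Sylow 2 G)
    (hodd : Odd (Nat.card ↥(normalizer ((R : Subgroup G) : Set G)))) :
    IsCompositionKGroupWith (fun S _ => QQ 2 S) G := by
  have hG : Odd (Nat.card G) := by
    by_contra hev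
    rw [Nat.not_odd_iff_even] at hev
    have h1 : 2 ∣ Nat.card ↥(R : Subgroup G) := by
      have h2 := R.card_eq_multiplicity
      rw [h2]
      exact dvd_pow_self 2 ((Nat.Prime.factorization_pos_of_dvd Nat.prime_two Nat.card_pos.ne' hev.two_dvd).ne')
    have h2 : Nat.card ↥(R : Subgroup G) ∣ Nat.card ↥(normalizer ((R : Subgroup G) : Set G)) :=
      card_dvd_of_le le_normalizer
    exact (Nat.not_even_iff_odd.2 hodd) (even_iff_two_dvd.2 (h1.trans h2))
  rw [compK_iff (inv_QQ 2)]
  intro H _ S _ _ hna f hf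
  exfalso
  have hfin : Finite S := Finite.of_surjective f hf
  have hS : Odd (Nat.card S) := by
    refine Odd.of_dvd_nat hG ?_
    exact (card_dvd_of_surjective f hf).trans (card_subgroup_dvd_card H)
  exact hna (IsSimpleGroup.comm_iff_isSolvable.2 (Cfsg.Agent.S0205.result hS))

/-- **S3855 from the rows.** -/
theorem reduction (hK : RichAll.{u}) {G : Type u} [Group G] [Finite G] (p : ℕ) [Fact p.Prime] (P : Sylow p G)
    (hodd : Odd (Nat.card ↥(normalizer ((P : Subgroup G) : Set G)))) (hrow : p ≠ 2 → Rows.{u} p) :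
    IsCompositionKGroupWith (fun S _ => p ∣ Nat.card S ∧ ((∀ Q : Sylow p S, IsCyclic ↥Q) ∨
      ∃ (F : Type) (_ : Field F) (_ : Fintype F), (∃ f : ℕ, Fintype.card F = p ^ f) ∧ Fintype.card F % 4 = 3 ∧
        Nonempty (S ≃* Matrix.ProjectiveSpecialLinearGroup (Fin 2) F))) G := by
  by_cases h2 : p = 2
  · subst h2
    exact main_two P hodd
  · exact main hK (hrow h2) G P hodd

end Cfsg.Agent.H467.OddNormRed
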